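import Cfsg.Agent.SigZeroU5.Lin

/-!
# Commuting nonabelian simple groups in dimension at most five (helper273)

* `hom_trivial` : a nonabelian simple group of even order has no nontrivial action on a plane (characteristic `≠ 2`);
* `no_comm_five` : two commuting nonabelian simple groups of even order do not act faithfully on a space of dimension
  at most 5 (characteristic `≠ 2`).
-/

set_option autoImplicit false
set_option linter.unusedSectionVars false

namespace Cfsg.Agent.H273.EPU

open Module Cfsg.Agent.SigZeroU5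

section two

variable {F W T : Type*} [Field F] [AddCommGroup W] [Module F W] [FiniteDimensional F W] [Group T]

theorem mat_two {F : Type*} [Field F] (h2 : (2 : F) ≠ 0) {A : Matrix (Fin 2) (Fin 2) F} (hA : A * A = 1)
    (hd : A.det = 1) : A = 1 ∨ A = -1 := by
  have h1 : A.adjugate = A := by
    have e1 : A * (A * A.adjugate) = A := by rw [Matrix.mul_adjugate, hd, one_smul, mul_one]
    rwa [← mul_assoc, hA, one_mul] at e1
  rw [Matrix.adjugate_fin_two] at h1
  have h01 := congrFun (congrFun h1 0) 1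
  have h10 := congrFun (congrFun h1 1) 0
  have h00 := congrFun (congrFun h1 0) 0
  simp only [Matrix.of_apply, Matrix.cons_val', Matrix.cons_val_zero, Matrix.cons_val_one, Matrix.cons_val_fin_one] at h01 h10 h00
  have e01 : A 0 1 = 0 := by
    have : 2 * A 0 1 = 0 := by linear_combination -h01
    exact (mul_eq_zero.1 this).resolve_left h2
  have e10 : A 1 0 = 0 := by
    have : 2 * A 1 0 = 0 := by linear_combination -h10
    exact (mul_eq_zero.1 this).resolve_left h2
  rw [Matrix.det_fin_two, e01, h00] at hd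
  have h3 : (A 0 0 - 1) * (A 0 0 + 1) = 0 := by linear_combination hd
  rcases mul_eq_zero.1 h3 with h4 | h4
  · left
    have h5 : A 0 0 = 1 := sub_eq_zero.1 h4
    ext i j
    fin_cases i <;> fin_cases j
    · simpa using h5
    · simpa using e01
    · simpa using e10
    · simpa [h00] using h5
  · right
    have h5 : A 0 0 = -1 := eq_neg_of_add_eq_zero_left h4
    ext i j
    fin_cases i <;> fin_cases j
    · simpa using h5
    · simpa using e01
    · simpa using e10
    · simpa [h00] using h5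

theorem pm_one {f : End F W} (h2 : (2 : F) ≠ 0) (hW : finrank F W ≤ 2) (hf : f * f = 1) (hd : LinearMap.det f = 1) :
    f = 1 ∨ f = -1 := by
  obtain ⟨n, hn⟩ : ∃ n, finrank F W = n := ⟨_, rfl⟩
  let b := finBasisOfFinrankEq F W hn
  have hmul : LinearMap.toMatrix b b f * LinearMap.toMatrix b b f = 1 := by
    rw [← LinearMap.toMatrix_mul, hf, LinearMap.toMatrix_one]
  have hdet : (LinearMap.toMatrix b b f).det = 1 := by rw [LinearMap.det_toMatrix, hd]
  have key : LinearMap.toMatrix b b f = 1 ∨ LinearMap.toMatrix b b f = -1 := by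
    have hn2 : n = 0 ∨ n = 1 ∨ n = 2 := by omega
    rcases hn2 with rfl | rfl | rfl
    · left
      ext i
      exact i.elim0
    · left
      rw [Matrix.det_fin_one] at hdet
      ext i j
      have hi : i = 0 := Subsingleton.elim _ _
      have hj : j = 0 := Subsingleton.elim _ _
      rw [hi, hj, hdet, Matrix.one_apply_eq]
    · exact mat_two h2 hmul hdet
  rcases key with h | h
  · left
    apply (LinearMap.toMatrix b b).injective
    rw [h, LinearMap.toMatrix_one]
  · right
    apply (LinearMap.toMatrix b b).injective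
    rw [h, map_neg, LinearMap.toMatrix_one]

/-- a homomorphism of a nonabelian simple group into a commutative group is trivial -/
theorem hom_comm_trivial [IsSimpleGroup T] (hnc : ¬ ∀ a b : T, a * b = b * a) {C : Type*} [CommGroup C] (f : T →* C)
    (x : T) : f x = 1 := by
  rcases (inferInstance : f.ker.Normal).eq_bot_or_eq_top with h | h
  · exfalso
    apply hnc
    intro a b
    have hinj := (MonoidHom.ker_eq_bot_iff f).1 h
    apply hinj
    rw [map_mul, map_mul, mul_comm]
  · have : x ∈ f.ker := by rw [h]; trivial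
    exact this

theorem hom_trivial (h2 : (2 : F) ≠ 0) (hW : finrank F W ≤ 2) [IsSimpleGroup T]
    (hnc : ¬ ∀ a b : T, a * b = b * a) {t : T} (ht1 : t ≠ 1) (ht : t * t = 1) (φ : T →* End F W) (x : T) :
    φ x = 1 := by
  have hdet : ∀ y : T, LinearMap.det (φ y) = 1 := by
    intro y
    have := hom_comm_trivial hnc (MonoidHom.toHomUnits (LinearMap.det.comp φ)) y
    exact congrArg Units.val this
  let ψ : T →* (End F W)ˣ := MonoidHom.toHomUnits φ
  have hψ : ∀ y, ((ψ y : (End F W)ˣ) : End F W) = φ y := fun y => rfl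
  rcases (inferInstance : ψ.ker.Normal).eq_bot_or_eq_top with h | h
  · exfalso
    have hinj := (MonoidHom.ker_eq_bot_iff ψ).1 h
    have hφt : φ t * φ t = 1 := by rw [← map_mul, ht, map_one]
    rcases pm_one h2 hW hφt (hdet t) with h3 | h3
    · apply ht1
      apply hinj
      apply Units.ext
      rw [hψ, h3, map_one]
      rfl
    · have hc : ∀ y, t * y = y * t := by
        intro y
        apply hinj
        apply Units.ext
        rw [hψ, hψ, map_mul, map_mul, h3, neg_one_mul, mul_neg_one]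
      have hz : t ∈ Subgroup.center T := Subgroup.mem_center_iff.2 fun y => (hc y).symm
      rcases (inferInstance : (Subgroup.center T).Normal).eq_bot_or_eq_top with h4 | h4
      · rw [h4, Subgroup.mem_bot] at hz
        exact ht1 hz
      · apply hnc
        intro a b
        have : b ∈ Subgroup.center T := by rw [h4]; trivial
        exact Subgroup.mem_center_iff.1 this a
  · have : x ∈ ψ.ker := by rw [h]; trivial
    exact congrArg Units.val this

end two

section five

variable {F V L : Type*} [Field F] [AddCommGroup V] [Module F V] [FiniteDimensional F V] [Group L]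
  (ρ : L →* End F V)

/-- the eigenspaces -/
def Vp (f : End F V) : Submodule F V := LinearMap.ker (f - 1)

def Vm (f : End F V) : Submodule F V := LinearMap.ker (f + 1)

theorem mem_Vp {f : End F V} {v : V} : v ∈ Vp f ↔ f v = v := by
  rw [Vp, LinearMap.mem_ker, LinearMap.sub_apply, End.one_apply, sub_eq_zero]

theorem mem_Vm {f : End F V} {v : V} : v ∈ Vm f ↔ f v = -v := by
  rw [Vm, LinearMap.mem_ker, LinearMap.add_apply, End.one_apply, add_eq_zero_iff_eq_neg]

theorem add_mem_Vp {f : End F V} (hf : f * f = 1) (v : V) : v + f v ∈ Vp f := by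
  rw [mem_Vp, map_add]
  have : f (f v) = v := by rw [← End.mul_apply, hf]; rfl
  rw [this, add_comm]

theorem sub_mem_Vm {f : End F V} (hf : f * f = 1) (v : V) : f v - v ∈ Vm f := by
  rw [mem_Vm, map_sub]
  have : f (f v) = v := by rw [← End.mul_apply, hf]; rfl
  rw [this, neg_sub]

theorem inf_eq_bot (h2 : (2 : F) ≠ 0) (f : End F V) : Vp f ⊓ Vm f = ⊥ := by
  rw [Submodule.eq_bot_iff]
  rintro v ⟨h1, h3⟩
  rw [SetLike.mem_coe, mem_Vp] at h1
  rw [SetLike.mem_coe, mem_Vm, h1] at h3
  have h4 : (2 : F) • v = 0 := by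
    rw [two_smul]
    nth_rewrite 2 [h3]
    exact add_neg_cancel v
  exact (smul_eq_zero.1 h4).resolve_left h2

theorem finrank_add {f : End F V} (h2 : (2 : F) ≠ 0) (hf : f * f = 1) :
    finrank F (Vp f) + finrank F (Vm f) = finrank F V := by
  refine Submodule.finrank_add_eq_of_isCompl ⟨disjoint_iff.2 (inf_eq_bot h2 f), codisjoint_iff.2 ?_⟩
  rw [eq_top_iff]
  intro v _
  have e : v = (2 : F)⁻¹ • (v + f v) + (-(2 : F)⁻¹) • (f v - v) := by
    have h5 : (2 : F)⁻¹ + (2 : F)⁻¹ = 1 := by rw [← two_mul, mul_inv_cancel₀ h2]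
    calc v = ((2 : F)⁻¹ + (2 : F)⁻¹) • v := by rw [h5, one_smul]
      _ = _ := by module
  rw [e]
  exact Submodule.add_mem_sup (Submodule.smul_mem _ _ (add_mem_Vp hf v)) (Submodule.smul_mem _ _ (sub_mem_Vm hf v))

/-- an involution which is trivial on `C` and on `V / C` is trivial -/
theorem eq_one_of {f : End F V} (h2 : (2 : F) ≠ 0) (hf : f * f = 1) {C : Submodule F V} (h1 : ∀ v, f v - v ∈ C)
    (h3 : ∀ v ∈ C, f v = v) : f = 1 := by
  ext v
  have h4 := h3 _ (h1 v)
  have h5 := mem_Vm.1 (sub_mem_Vm hf v)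
  rw [h4] at h5
  have h6 : (2 : F) • (f v - v) = 0 := by
    rw [two_smul]
    nth_rewrite 2 [h5]
    exact add_neg_cancel _
  exact sub_eq_zero.1 ((smul_eq_zero.1 h6).resolve_left h2)

variable {ρ}

/-- trivial action on small invariant subspaces -/
theorem triv_sub (h2 : (2 : F) ≠ 0) {T : Subgroup L} (hT : IsSimpleGroup T) (hnc : ¬ ∀ a b : T, a * b = b * a) {t : L}
    (htT : t ∈ T) (ht1 : t ≠ 1) (ht : t * t = 1) {W : Submodule F V} (hW : finrank F W ≤ 2)
    (hi : ∀ x ∈ T, ∀ w ∈ W, ρ x w ∈ W) : ∀ x ∈ T, ∀ w ∈ W, ρ x w = w := by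
  intro x hx w hw
  have hi' : ∀ a : T, W ≤ W.comap ((ρ.comp T.subtype) a) := fun a w hw => hi a a.2 w hw
  have h1 := hom_trivial h2 hW hnc (t := ⟨t, htT⟩) (fun h => ht1 (congrArg Subtype.val h)) (Subtype.ext ht)
    (restr (ρ.comp T.subtype) W hi') ⟨x, hx⟩
  have h3 := congrArg (fun f : End F W => ((f ⟨w, hw⟩ : W) : V)) h1
  exact h3

/-- trivial action on small quotients -/
theorem triv_quot (h2 : (2 : F) ≠ 0) {T : Subgroup L} (hT : IsSimpleGroup T) (hnc : ¬ ∀ a b : T, a * b = b * a) {t : L}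
    (htT : t ∈ T) (ht1 : t ≠ 1) (ht : t * t = 1) {W : Submodule F V} (hW : finrank F (V ⧸ W) ≤ 2)
    (hi : ∀ x ∈ T, ∀ w ∈ W, ρ x w ∈ W) : ∀ x ∈ T, ∀ v, ρ x v - v ∈ W := by
  intro x hx v
  have hi' : ∀ a : T, W ≤ W.comap ((ρ.comp T.subtype) a) := fun a w hw => hi a a.2 w hw
  have h1 := hom_trivial h2 hW hnc (t := ⟨t, htT⟩) (fun h => ht1 (congrArg Subtype.val h)) (Subtype.ext ht)
    (quot (ρ.comp T.subtype) W hi') ⟨x, hx⟩
  have h3 : (Submodule.Quotient.mk (ρ x v) : V ⧸ W) = Submodule.Quotient.mk v :=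
    congrArg (fun f : End F (V ⧸ W) => f (Submodule.Quotient.mk v)) h1
  exact (Submodule.Quotient.eq W).1 h3

/-- **Two commuting nonabelian simple groups of even order do not act faithfully in dimension at most five.** -/
theorem no_comm_five (h2 : (2 : F) ≠ 0) (h5 : finrank F V ≤ 5) (hinj : Function.Injective ρ) {T₁ T₂ : Subgroup L}
    (hT₁ : IsSimpleGroup T₁) (hn₁ : ¬ ∀ a b : T₁, a * b = b * a) (hT₂ : IsSimpleGroup T₂)
    (hn₂ : ¬ ∀ a b : T₂, a * b = b * a) (hc : ∀ x ∈ T₁, ∀ y ∈ T₂, x * y = y * x)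
    {t s : L} (htT : t ∈ T₁) (ht1 : t ≠ 1) (ht : t * t = 1) (hsT : s ∈ T₂) (hs1 : s ≠ 1) (hs : s * s = 1) :
    False := by
  have hft : ρ t * ρ t = 1 := by rw [← map_mul, ht, map_one]
  have hfs : ρ s * ρ s = 1 := by rw [← map_mul, hs, map_one]
  have hcom : ∀ x ∈ T₁, ∀ y ∈ T₂, ∀ v, ρ x (ρ y v) = ρ y (ρ x v) := by
    intro x hx y hy v
    rw [← End.mul_apply, ← End.mul_apply, ← map_mul, ← map_mul, hc x hx y hy]
  -- the two eigenspaces are invariant
  have ip : ∀ {T : Subgroup L} {y : L}, (∀ x ∈ T, ∀ v, ρ x (ρ y v) = ρ y (ρ x v)) → ∀ x ∈ T, ∀ v ∈ Vp (ρ y),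
      ρ x v ∈ Vp (ρ y) := by
    intro T y h x hx v hv
    rw [mem_Vp] at hv ⊢
    rw [← h x hx, hv]
  have im : ∀ {T : Subgroup L} {y : L}, (∀ x ∈ T, ∀ v, ρ x (ρ y v) = ρ y (ρ x v)) → ∀ x ∈ T, ∀ v ∈ Vm (ρ y),
      ρ x v ∈ Vm (ρ y) := by
    intro T y h x hx v hv
    rw [mem_Vm] at hv ⊢
    rw [← h x hx, hv, map_neg]
  have c1 : ∀ x ∈ T₁, ∀ v, ρ x (ρ s v) = ρ s (ρ x v) := fun x hx v => hcom x hx s hsT v
  have c2 : ∀ x ∈ T₂, ∀ v, ρ x (ρ t v) = ρ t (ρ x v) := fun x hx v => (hcom t htT x hx v).symm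
  have d1 := finrank_add h2 hfs
  have d2 := finrank_add h2 hft
  -- the fixed space of `T₁`
  let C : Submodule F V :=
    { carrier := {v | ∀ x ∈ T₁, ρ x v = v}
      add_mem' := fun {a b} ha hb x hx => by rw [map_add, ha x hx, hb x hx]
      zero_mem' := fun x _ => map_zero _
      smul_mem' := fun c v hv x hx => by rw [map_smul, hv x hx] }
  have hsC : Vm (ρ s) ≤ C := by
    by_cases hm : finrank F (Vm (ρ s)) ≤ 2
    · intro v hv x hx
      exact triv_sub h2 hT₁ hn₁ htT ht1 ht hm (im c1) x hx v hv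
    · exfalso
      have hp : finrank F (Vp (ρ s)) ≤ 2 := by omega
      have h1 : Vp (ρ s) ≤ Vp (ρ t) := fun v hv =>
        mem_Vp.2 (triv_sub h2 hT₁ hn₁ htT ht1 ht hp (ip c1) t htT v hv)
      by_cases hm' : finrank F (Vm (ρ t)) ≤ 2
      · -- `Vm t ≤ Vp s ≤ Vp t`
        have h3 : Vm (ρ t) ≤ Vp (ρ t) := fun v hv =>
          h1 (mem_Vp.2 (triv_sub h2 hT₂ hn₂ hsT hs1 hs hm' (im c2) s hsT v hv))
        apply ht1
        apply hinj
        rw [map_one]
        refine eq_one_of h2 hft (C := Vm (ρ t)) (sub_mem_Vm hft) fun v hv => mem_Vp.1 (h3 hv)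
      · have hp' : finrank F (Vp (ρ t)) ≤ 2 := by omega
        have h3 : Vp (ρ t) ≤ Vp (ρ s) := fun v hv =>
          mem_Vp.2 (triv_sub h2 hT₂ hn₂ hsT hs1 hs hp' (ip c2) s hsT v hv)
        -- `s = t`
        have hst : s = t := by
          apply hinj
          have hvm : ∀ v ∈ Vm (ρ t), ρ s v = -v := by
            intro v hv
            have h4 : v + ρ s v ∈ Vp (ρ t) ⊓ Vm (ρ t) :=
              ⟨h1 (add_mem_Vp hfs v), (Vm (ρ t)).add_mem hv (im c2 s hsT v hv)⟩
            rw [inf_eq_bot h2, Submodule.mem_bot] at h4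
            exact eq_neg_of_add_eq_zero_right h4
          ext v
          have h5 : (2 : F) • ρ s v = (2 : F) • ρ t v := by
            have e1 : (2 : F) • v = (v + ρ t v) - (ρ t v - v) := by
              rw [two_smul]
              abel
            have e2 : (2 : F) • ρ s v = ρ s (v + ρ t v) - ρ s (ρ t v - v) := by
              rw [← map_smul, e1, map_sub]
            rw [e2, mem_Vp.1 (h3 (add_mem_Vp hft v)), hvm _ (sub_mem_Vm hft v), two_smul]
            abel
          exact smul_right_injective V h2 h5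
        -- `t` is central in `T₁`
        have hz : (⟨t, htT⟩ : T₁) ∈ Subgroup.center T₁ := Subgroup.mem_center_iff.2 fun y =>
          Subtype.ext (by
            have := hc y y.2 s hsT
            rw [hst] at this
            exact this)
        rcases (inferInstance : (Subgroup.center T₁).Normal).eq_bot_or_eq_top with h4 | h4
        · rw [h4, Subgroup.mem_bot] at hz
          exact ht1 (congrArg Subtype.val hz)
        · apply hn₁
          intro a b
          have : b ∈ Subgroup.center T₁ := by rw [h4]; trivial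
          exact Subgroup.mem_center_iff.1 this a
  have hquot := Submodule.finrank_quotient_add_finrank C
  have hC2 : finrank F C ≤ 2 := by
    by_contra hlt
    have h1 := triv_quot (W := C) h2 hT₁ hn₁ htT ht1 ht (by omega) (fun x hx w hw => by
      rw [hw x hx]
      exact hw)
    apply ht1
    apply hinj
    rw [map_one]
    exact eq_one_of h2 hft (C := C) (h1 t htT) fun v hv => hv t htT
  have h1 := triv_sub (W := C) h2 hT₂ hn₂ hsT hs1 hs hC2 (fun x hx w hw y hy => by
    rw [hcom y hy x hx, hw y hy])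
  apply hs1
  apply hinj
  rw [map_one]
  exact eq_one_of h2 hfs (C := C) (fun v => hsC (sub_mem_Vm hfs v)) fun v hv => h1 s hsT v hv

end five

end Cfsg.Agent.H273.EPU
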